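import Cfsg.Agent.H396.Uni.Str

/-!
# S4970, FR-UNI, part 5: `V = J_k ⊗ M`, the operators `1 ⊗ a` and `h`
-/

set_option autoImplicit false

universe u

namespace Cfsg.Agent.H396.Uni

open Module Cfsg.Agent.H721.FR Cfsg.Agent.H721.SR

section

variable {F V : Type u} [Field F] [AddCommGroup V] [Module F V]
variable {B : V →ₗ[F] V →ₗ[F] F} {N : V →ₗ[F] V} {k : ℕ} {M : Submodule F V} {ε : F}

/-- `m ↦ Σ N^i m_i` -/
noncomputable def phiL (N : V →ₗ[F] V) (k : ℕ) (M : Submodule F V) : (Fin k → M) →ₗ[F] V :=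
  ∑ i : Fin k, (N ^ (i : ℕ)) ∘ₗ M.subtype ∘ₗ LinearMap.proj i

theorem phiL_apply (m : Fin k → M) : phiL N k M m = ∑ i : Fin k, (N ^ (i : ℕ)) (m i : V) := by
  rw [phiL, LinearMap.sum_apply]
  rfl

theorem phiL_single (i : Fin k) (x : M) : phiL N k M (Pi.single i x) = (N ^ (i : ℕ)) (x : V) := by
  classical
  rw [phiL_apply, Finset.sum_eq_single i]
  · rw [Pi.single_eq_same]
  · intro j _ hj
    rw [Pi.single_eq_of_ne hj, Submodule.coe_zero, map_zero]
  · intro h; exact absurd (Finset.mem_univ _) h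

theorem Pre.phiL_inj (h : Pre B N k M) : Function.Injective (phiL N k M) := by
  rw [← LinearMap.ker_eq_bot, LinearMap.ker_eq_bot']
  intro m hm
  rw [phiL_apply] at hm
  have key : ∀ n : ℕ, ∀ i : Fin k, (i : ℕ) < n → m i = 0 := by
    intro n
    induction n with
    | zero => intro i hi; omega
    | succ n ih =>
      intro i hi
      by_cases hin : (i : ℕ) < n
      · exact ih i hin
      have hi' : (i : ℕ) = n := by omega
      apply Subtype.ext
      apply h.inj _ (m i).2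
      have h1 := congrArg (N ^ (k - 1 - n)) hm
      rw [map_sum, map_zero, Finset.sum_eq_single i] at h1
      · rw [powN] at h1
        have h2 : k - 1 - n + (i : ℕ) = k - 1 := by omega
        rwa [h2] at h1
      · intro j _ hj
        rw [powN]
        rcases Nat.lt_or_ge (j : ℕ) n with hjn | hjn
        · rw [ih j hjn, Submodule.coe_zero, map_zero]
        · have hj' : (j : ℕ) ≠ i := fun e => hj (Fin.ext e)
          exact pow_zero_of_le h.nil (by have := i.2; omega) _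
      · intro h; exact absurd (Finset.mem_univ _) h
  funext i
  exact key k i i.2

theorem mem_range_phiL (hn : N ^ k = 0) {x : V} (hx : x ∈ M) (i : ℕ) : (N ^ i) x ∈ LinearMap.range (phiL N k M) := by
  rcases Nat.lt_or_ge i k with hi | hi
  · exact ⟨Pi.single ⟨i, hi⟩ ⟨x, hx⟩, phiL_single ⟨i, hi⟩ ⟨x, hx⟩⟩
  · rw [pow_zero_of_le hn hi]
    exact Submodule.zero_mem _

theorem Pre.phiL_surj (h : Pre B N k M) : Function.Surjective (phiL N k M) := by
  have key : ∀ n : ℕ, ∀ v : V, ∃ r ∈ LinearMap.range (phiL N k M), ∃ w, v = r + (N ^ n) w := by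
    intro n
    induction n with
    | zero => intro v; exact ⟨0, Submodule.zero_mem _, v, by simp⟩
    | succ n ih =>
      intro v
      obtain ⟨r, hr, w, rfl⟩ := ih v
      obtain ⟨x, hx, w', rfl⟩ := h.exists_add w
      refine ⟨r + (N ^ n) x, Submodule.add_mem _ hr (mem_range_phiL h.nil hx n), w', ?_⟩
      rw [map_add, pow_succ, Module.End.mul_apply, add_assoc]
  intro v
  obtain ⟨r, hr, w, hv⟩ := key k v
  rw [h.nil, LinearMap.zero_apply, add_zero] at hv
  rw [hv]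
  exact hr

/-- `V = M^k` -/
noncomputable def Pre.phi (h : Pre B N k M) : (Fin k → M) ≃ₗ[F] V :=
  LinearEquiv.ofBijective (phiL N k M) ⟨h.phiL_inj, h.phiL_surj⟩

theorem Pre.phi_apply (h : Pre B N k M) (m : Fin k → M) : h.phi m = ∑ i : Fin k, (N ^ (i : ℕ)) (m i : V) :=
  phiL_apply m

theorem Pre.phi_single (h : Pre B N k M) (i : Fin k) (x : M) : h.phi (Pi.single i x) = (N ^ (i : ℕ)) (x : V) :=
  phiL_single i x

theorem Pre.phi_symm (h : Pre B N k M) (i : Fin k) (x : M) : h.phi.symm ((N ^ (i : ℕ)) (x : V)) = Pi.single i x := by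
  rw [LinearEquiv.symm_apply_eq, h.phi_single]

/-- linear maps agree if they agree on the `N^i x` -/
theorem Pre.ext_lin (h : Pre B N k M) {W : Type*} [AddCommGroup W] [Module F W] {f g : V →ₗ[F] W}
    (hfg : ∀ (i : ℕ) (x : M), f ((N ^ i) (x : V)) = g ((N ^ i) (x : V))) : f = g := by
  ext v
  obtain ⟨m, rfl⟩ := h.phi.surjective v
  rw [h.phi_apply, map_sum, map_sum]
  exact Finset.sum_congr rfl fun i _ => hfg i (m i)

theorem Pre.ext_equiv (h : Pre B N k M) {f g : V ≃ₗ[F] V}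
    (hfg : ∀ (i : ℕ) (x : M), f ((N ^ i) (x : V)) = g ((N ^ i) (x : V))) : f = g := by
  have h1 : (f : V →ₗ[F] V) = (g : V →ₗ[F] V) := h.ext_lin hfg
  ext v
  exact LinearMap.congr_fun h1 v

/-- bilinear identities can be checked on the `N^i x` -/
theorem Pre.ext_bil (h : Pre B N k M) {f g : V →ₗ[F] V →ₗ[F] F}
    (hfg : ∀ (i j : ℕ) (x y : M), f ((N ^ i) (x : V)) ((N ^ j) (y : V)) = g ((N ^ i) (x : V)) ((N ^ j) (y : V))) :
    f = g :=
  h.ext_lin fun i x => h.ext_lin fun j y => hfg i j x y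

theorem Pre.ext_form (h : Pre B N k M) {f : V →ₗ[F] V} {t : F}
    (hfg : ∀ (i j : ℕ) (x y : M), B (f ((N ^ i) (x : V))) (f ((N ^ j) (y : V))) =
      t * B ((N ^ i) (x : V)) ((N ^ j) (y : V))) : ∀ v w, B (f v) (f w) = t * B v w := by
  have h1 : (B ∘ₗ f).compl₂ f = t • B := h.ext_bil fun i j x y => by
    rw [LinearMap.compl₂_apply, LinearMap.comp_apply, LinearMap.smul_apply, LinearMap.smul_apply, smul_eq_mul]
    exact hfg i j x y
  intro v w
  have := LinearMap.congr_fun (LinearMap.congr_fun h1 v) w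
  rwa [LinearMap.compl₂_apply, LinearMap.comp_apply, LinearMap.smul_apply, LinearMap.smul_apply, smul_eq_mul] at this

/-- `1 ⊗ a` -/
noncomputable def Pre.tens (h : Pre B N k M) : (M ≃ₗ[F] M) →* (V ≃ₗ[F] V) where
  toFun a := h.phi.symm ≪≫ₗ LinearEquiv.piCongrRight (fun _ => a) ≪≫ₗ h.phi
  map_one' := by
    ext v
    simp only [LinearEquiv.trans_apply]
    exact h.phi.apply_symm_apply v
  map_mul' a b := by
    ext v
    simp only [LinearEquiv.trans_apply, LinearEquiv.mul_apply, LinearEquiv.symm_apply_apply]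
    rfl

theorem Pre.tens_apply (h : Pre B N k M) (a : M ≃ₗ[F] M) (i : ℕ) (x : M) :
    h.tens a ((N ^ i) (x : V)) = (N ^ i) (a x : V) := by
  classical
  rcases Nat.lt_or_ge i k with hi | hi
  · show h.phi (LinearEquiv.piCongrRight (fun _ => a) (h.phi.symm ((N ^ i) (x : V)))) = _
    have h1 := h.phi_symm ⟨i, hi⟩ x
    have h1' : h.phi.symm ((N ^ i) (x : V)) = Pi.single ⟨i, hi⟩ x := h1
    rw [h1']
    have h2 : LinearEquiv.piCongrRight (fun _ : Fin k => a) (Pi.single ⟨i, hi⟩ x) = Pi.single ⟨i, hi⟩ (a x) := by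
      funext j
      show a ((Pi.single ⟨i, hi⟩ x : Fin k → M) j) = _
      by_cases hj : j = ⟨i, hi⟩
      · subst hj; rw [Pi.single_eq_same, Pi.single_eq_same]
      · rw [Pi.single_eq_of_ne hj, Pi.single_eq_of_ne hj, map_zero]
    rw [h2]
    exact h.phi_single ⟨i, hi⟩ (a x)
  · rw [pow_zero_of_le h.nil hi, pow_zero_of_le h.nil hi, map_zero]

theorem Pre.tens_coe (h : Pre B N k M) (a : M ≃ₗ[F] M) (x : M) : h.tens a (x : V) = (a x : V) := by
  have := h.tens_apply a 0 x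
  simpa using this

theorem Pre.tens_N (h : Pre B N k M) (a : M ≃ₗ[F] M) (v : V) : h.tens a (N v) = N (h.tens a v) := by
  have h1 : (h.tens a : V →ₗ[F] V) ∘ₗ N = N ∘ₗ (h.tens a : V →ₗ[F] V) := h.ext_lin fun i x => by
    show h.tens a (N ((N ^ i) (x : V))) = N (h.tens a ((N ^ i) (x : V)))
    have h2 : ∀ y : V, N ((N ^ i) y) = (N ^ (i + 1)) y := fun y => by rw [pow_succ', Module.End.mul_apply]
    rw [h2, h.tens_apply, h.tens_apply, h2]
  exact LinearMap.congr_fun h1 v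

/-- `h`: `(-1)^i` on `N^i M` -/
noncomputable def Pre.hh (h : Pre B N k M) : V ≃ₗ[F] V :=
  h.phi.symm ≪≫ₗ LinearEquiv.piCongrRight (fun i : Fin k => LinearEquiv.smulOfUnit ((-1 : Fˣ) ^ (i : ℕ))) ≪≫ₗ h.phi

theorem Pre.hh_apply (h : Pre B N k M) (i : ℕ) (x : M) :
    h.hh ((N ^ i) (x : V)) = (-1 : F) ^ i • (N ^ i) (x : V) := by
  classical
  rcases Nat.lt_or_ge i k with hi | hi
  · show h.phi (LinearEquiv.piCongrRight (fun i : Fin k => LinearEquiv.smulOfUnit ((-1 : Fˣ) ^ (i : ℕ)))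
      (h.phi.symm ((N ^ i) (x : V)))) = _
    have h1' : h.phi.symm ((N ^ i) (x : V)) = Pi.single ⟨i, hi⟩ x := h.phi_symm ⟨i, hi⟩ x
    rw [h1']
    have h2 : LinearEquiv.piCongrRight (fun i : Fin k => LinearEquiv.smulOfUnit (R := F) (M := M) ((-1 : Fˣ) ^ (i : ℕ)))
        (Pi.single ⟨i, hi⟩ x) = Pi.single ⟨i, hi⟩ ((-1 : F) ^ i • x) := by
      funext j
      show ((-1 : Fˣ) ^ (j : ℕ)) • ((Pi.single ⟨i, hi⟩ x : Fin k → M) j) = _
      by_cases hj : j = ⟨i, hi⟩
      · subst hj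
        rw [Pi.single_eq_same, Pi.single_eq_same, Units.smul_def]
        simp
      · rw [Pi.single_eq_of_ne hj, Pi.single_eq_of_ne hj, smul_zero]
    rw [h2]
    have h3 := h.phi_single ⟨i, hi⟩ ((-1 : F) ^ i • x)
    rw [h3, Submodule.coe_smul, map_smul]
  · rw [pow_zero_of_le h.nil hi, map_zero, smul_zero]

theorem Pre.hh_coe (h : Pre B N k M) (x : M) : h.hh (x : V) = (x : V) := by
  have := h.hh_apply 0 x
  simpa using this

theorem Pre.hh_N (h : Pre B N k M) (v : V) : h.hh (N v) = - N (h.hh v) := by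
  have h1 : (h.hh : V →ₗ[F] V) ∘ₗ N = - (N ∘ₗ (h.hh : V →ₗ[F] V)) := h.ext_lin fun i x => by
    show h.hh (N ((N ^ i) (x : V))) = - N (h.hh ((N ^ i) (x : V)))
    have h2 : ∀ y : V, N ((N ^ i) y) = (N ^ (i + 1)) y := fun y => by rw [pow_succ', Module.End.mul_apply]
    rw [h2, h.hh_apply, h.hh_apply, map_smul, h2, pow_succ, mul_neg_one, neg_smul]
  exact LinearMap.congr_fun h1 v

theorem Pre.hh_hh (h : Pre B N k M) : h.hh * h.hh = 1 := by
  apply h.ext_equiv
  intro i x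
  rw [LinearEquiv.mul_apply, h.hh_apply, map_smul, h.hh_apply, smul_smul, ← mul_pow]
  simp

theorem Pre.hh_tens (h : Pre B N k M) (a : M ≃ₗ[F] M) : h.hh * h.tens a = h.tens a * h.hh := by
  apply h.ext_equiv
  intro i x
  rw [LinearEquiv.mul_apply, LinearEquiv.mul_apply, h.tens_apply, h.hh_apply, h.hh_apply, map_smul, h.tens_apply]

/-! ### the form on `M` -/

/-- `β x y = B x (N^(k-1) y)` on `M` -/
noncomputable def bet (B : V →ₗ[F] V →ₗ[F] F) (N : V →ₗ[F] V) (k : ℕ) (M : Submodule F V) : M →ₗ[F] M →ₗ[F] F :=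
  (B ∘ₗ M.subtype).compl₂ ((N ^ (k - 1)) ∘ₗ M.subtype)

theorem bet_apply (x y : M) : bet B N k M x y = B (x : V) ((N ^ (k - 1)) (y : V)) := rfl

theorem Pre.bet_symm (h : Pre B N k M) (hs : ∀ x y, B x y = ε * B y x) (x y : M) :
    bet B N k M x y = (ε * (-1) ^ (k - 1)) * bet B N k M y x := by
  rw [bet_apply, bet_apply, hs, skew_pow h.skew, mul_assoc]

theorem Pre.bet_nd (h : Pre B N k M) (hnd : ∀ x, (∀ y, B x y = 0) → x = 0) (x : M)
    (h0 : ∀ y, bet B N k M x y = 0) : x = 0 :=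
  Subtype.ext (h.nd_left hnd x.2 fun y hy => h0 ⟨y, hy⟩)

theorem Str.form (h : Str B N k M) (i j : ℕ) (x y : M) :
    B ((N ^ i) (x : V)) ((N ^ j) (y : V)) = if i + j = k - 1 then (-1) ^ i * bet B N k M x y else 0 := by
  rw [skew_pow h.skew, powN]
  split_ifs with hij
  · rw [hij, bet_apply]
  · rw [h.orth _ x.2 _ y.2 _ hij, mul_zero]

/-- similarities -/
theorem Str.tens_form (h : Str B N k M) (a : M ≃ₗ[F] M) (t : F) :
    (∀ v w, B (h.tens a v) (h.tens a w) = t * B v w) ↔ ∀ x y, bet B N k M (a x) (a y) = t * bet B N k M x y := by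
  constructor
  · intro h1 x y
    have h2 := h1 (x : V) ((N ^ (k - 1)) (y : V))
    rw [h.tens_coe, h.tens_apply] at h2
    rw [bet_apply, bet_apply]
    exact h2
  · intro h1
    refine h.ext_form (f := (h.tens a : V →ₗ[F] V)) fun i j x y => ?_
    show B (h.tens a ((N ^ i) (x : V))) (h.tens a ((N ^ j) (y : V))) = _
    rw [h.tens_apply, h.tens_apply, h.form, h.form]
    split_ifs
    · rw [h1]; ring
    · rw [mul_zero]

theorem Str.tens_mem (h : Str B N k M) (a : M ≃ₗ[F] M) : h.tens a ∈ Isom B ↔ a ∈ Isom (bet B N k M) := by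
  have h1 := h.tens_form a 1
  simp only [one_mul] at h1
  exact h1

theorem Str.hh_form (h : Str B N k M) (v w : V) : B (h.hh v) (h.hh w) = (-1) ^ (k - 1) * B v w := by
  refine h.ext_form (f := (h.hh : V →ₗ[F] V)) (fun i j x y => ?_) v w
  show B (h.hh ((N ^ i) (x : V))) (h.hh ((N ^ j) (y : V))) = _
  rw [h.hh_apply, h.hh_apply, map_smul, map_smul, LinearMap.smul_apply, smul_eq_mul, smul_eq_mul, h.form]
  split_ifs with hij
  · rw [← hij, pow_add]; ring
  · rw [mul_zero, mul_zero, mul_zero]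

/-! ### `c` -/

theorem sub_surj (hn : N ^ k = 0) (v : V) : ∃ x, v = x - N x := ⟨_, geom_inv hn v⟩

theorem Pre.tens_c (h : Pre B N k M) {c : V ≃ₗ[F] V} (hc : Cay B c N) (a : M ≃ₗ[F] M) : h.tens a * c = c * h.tens a := by
  ext v
  obtain ⟨x, rfl⟩ := sub_surj h.nil v
  rw [LinearEquiv.mul_apply, LinearEquiv.mul_apply, hc.cc, map_add, map_sub, h.tens_N, hc.cc]

theorem Pre.hh_c (h : Pre B N k M) {c : V ≃ₗ[F] V} (hc : Cay B c N) : h.hh * c * h.hh⁻¹ = c⁻¹ := by
  have h1 : c * (h.hh * c) = h.hh := by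
    ext v
    obtain ⟨x, rfl⟩ := sub_surj h.nil v
    rw [LinearEquiv.mul_apply, LinearEquiv.mul_apply, hc.cc, map_add, map_sub, h.hh_N]
    have h2 := hc.cc (h.hh x)
    rw [← sub_eq_add_neg, h2, sub_neg_eq_add]
  calc h.hh * c * h.hh⁻¹ = c⁻¹ * (c * (h.hh * c)) * h.hh⁻¹ := by group
    _ = c⁻¹ := by rw [h1]; group

/-! ### the elements of `P` -/

/-- the restriction to an invariant subspace -/
noncomputable def res (M : Submodule F V) (g : V ≃ₗ[F] V) (h1 : ∀ x ∈ M, g x ∈ M) (h2 : ∀ x ∈ M, g⁻¹ x ∈ M) :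
    M ≃ₗ[F] M where
  toFun x := ⟨g x, h1 x x.2⟩
  invFun x := ⟨g⁻¹ x, h2 x x.2⟩
  map_add' x y := Subtype.ext (map_add g (x : V) (y : V))
  map_smul' c x := Subtype.ext (map_smul g c (x : V))
  left_inv x := Subtype.ext (g.symm_apply_apply (x : V))
  right_inv x := Subtype.ext (g.apply_symm_apply (x : V))

theorem res_apply {g : V ≃ₗ[F] V} (h1 : ∀ x ∈ M, g x ∈ M) (h2 : ∀ x ∈ M, g⁻¹ x ∈ M) (x : M) :
    (res M g h1 h2 x : V) = g x := rfl

theorem Pre.eq_tens (h : Pre B N k M) {g : V ≃ₗ[F] V} (h1 : ∀ x ∈ M, g x ∈ M) (h2 : ∀ x ∈ M, g⁻¹ x ∈ M)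
    (hN : ∀ x, g (N x) = N (g x)) : g = h.tens (res M g h1 h2) := by
  apply h.ext_equiv
  intro i x
  rw [h.tens_apply, res_apply]
  have := g_pow (N := N) (g := (g : V →ₗ[F] V)) (s := 1) (fun x => by rw [one_smul]; exact hN x) i (x : V)
  rw [one_pow, one_smul] at this
  exact this

theorem Pre.eq_hh_tens (h : Pre B N k M) {g : V ≃ₗ[F] V} (h1 : ∀ x ∈ M, g x ∈ M) (h2 : ∀ x ∈ M, g⁻¹ x ∈ M)
    (hN : ∀ x, g (N x) = - N (g x)) : g = h.hh * h.tens (res M g h1 h2) := by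
  apply h.ext_equiv
  intro i x
  rw [LinearEquiv.mul_apply, h.tens_apply, h.hh_apply, res_apply]
  exact g_pow (g := (g : V →ₗ[F] V)) (s := -1) (fun x => by rw [neg_smul, one_smul]; exact hN x) i (x : V)

/-- **the elements of `P`** -/
theorem Str.mem_cases (h : Str B N k M) {P : Subgroup (V ≃ₗ[F] V)} (hM : ∀ g ∈ P, ∀ x ∈ M, g x ∈ M)
    (hPI : P ≤ Isom B) {g : V ≃ₗ[F] V} (hg : g ∈ P)
    (hN : (∀ x, g (N x) = N (g x)) ∨ ∀ x, g (N x) = - N (g x)) :
    (∃ a ∈ Isom (bet B N k M), g = h.tens a) ∨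
      ∃ b : M ≃ₗ[F] M, (∀ x y, bet B N k M (b x) (b y) = (-1) ^ (k - 1) * bet B N k M x y) ∧ g = h.hh * h.tens b := by
  have hgi := hPI hg
  rw [mem_isom] at hgi
  rcases hN with hN | hN
  · left
    refine ⟨res M g (hM g hg) (hM _ (P.inv_mem hg)), ?_, h.eq_tens _ _ hN⟩
    rw [← h.tens_mem, ← h.eq_tens _ _ hN]
    exact hPI hg
  · right
    refine ⟨res M g (hM g hg) (hM _ (P.inv_mem hg)), ?_, h.eq_hh_tens _ _ hN⟩
    intro x y
    rw [bet_apply, bet_apply, res_apply, res_apply]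
    have h3 : g ((N ^ (k - 1)) (y : V)) = (-1 : F) ^ (k - 1) • (N ^ (k - 1)) (g (y : V)) :=
      g_pow (g := (g : V →ₗ[F] V)) (s := -1) (fun x => by rw [neg_smul, one_smul]; exact hN x) (k - 1) (y : V)
    have h4 := hgi (x : V) ((N ^ (k - 1)) (y : V))
    rw [h3, map_smul, smul_eq_mul] at h4
    rw [← h4, ← mul_assoc, ← mul_pow]
    simp

/-- the dimension -/
theorem Pre.finrank_eq [FiniteDimensional F V] (h : Pre B N k M) : finrank F V = k * finrank F M := by
  rw [← h.phi.finrank_eq, Module.finrank_pi_fintype]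
  simp

end

end Cfsg.Agent.H396.Uni
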