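import Cfsg.Agent.H396.Uni.Step

/-!
# S4970, FR-UNI, part 4: the structure of a unipotent isometry and its normalising 2-group (UNI-1)

* `uni1` : reducible, or `V` is free over `F[N]/N^k` on a `P`-invariant `M` with `B (N^i x) (N^j y) = 0` for `i + j ≠ k-1`.
-/

set_option autoImplicit false

universe u

namespace Cfsg.Agent.H396.Uni

open Module Cfsg.Agent.H721.FR Cfsg.Agent.H721.SR

section

variable {F V : Type u} [Field F] [AddCommGroup V] [Module F V]

/-- `V = M ⊗ F[N]/N^k`, `B (N^i x) (N^j y) = (-1)^i B x (N^(k-1) y)` if `i + j = k - 1` and `0` otherwise (`x, y ∈ M`) -/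
structure Str (B : V →ₗ[F] V →ₗ[F] F) (N : V →ₗ[F] V) (k : ℕ) (M : Submodule F V) : Prop extends Pre B N k M where
  orth : ∀ x ∈ M, ∀ y ∈ M, ∀ i, i ≠ k - 1 → B x ((N ^ i) y) = 0

variable {B : V →ₗ[F] V →ₗ[F] F} {N : V →ₗ[F] V} {k : ℕ} {M : Submodule F V} {ε : F}

/-- the stabiliser of a subspace -/
def stab (U : Submodule F V) : Subgroup (V ≃ₗ[F] V) where
  carrier := {g | U.map (g : V →ₗ[F] V) = U}
  one_mem' := Submodule.map_id U
  mul_mem' := fun {a b} ha hb => by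
    show U.map ((a : V →ₗ[F] V) ∘ₗ (b : V →ₗ[F] V)) = U
    rw [Submodule.map_comp]
    have ha' : U.map (a : V →ₗ[F] V) = U := ha
    have hb' : U.map (b : V →ₗ[F] V) = U := hb
    rw [hb', ha']
  inv_mem' := fun {a} ha => by
    have ha' : U.map (a : V →ₗ[F] V) = U := ha
    show U.map ((a⁻¹ : V ≃ₗ[F] V) : V →ₗ[F] V) = U
    conv_lhs => rw [← ha']
    rw [← Submodule.map_comp]
    have h1 : ((a⁻¹ : V ≃ₗ[F] V) : V →ₗ[F] V) ∘ₗ (a : V →ₗ[F] V) = LinearMap.id := by
      ext x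
      show (a⁻¹ * a) x = x
      rw [inv_mul_cancel]
      rfl
    rw [h1, Submodule.map_id]

theorem mem_stab_of_le [FiniteDimensional F V] {U : Submodule F V} {g : V ≃ₗ[F] V} (h : ∀ x ∈ U, g x ∈ U) :
    g ∈ stab U := by
  show U.map (g : V →ₗ[F] V) = U
  apply Submodule.eq_of_le_of_finrank_eq
  · rintro _ ⟨x, hx, rfl⟩
    exact h x hx
  · exact LinearEquiv.finrank_map_eq g U

/-- repeated improvement -/
theorem Pre.exists_str [FiniteDimensional F V] (h2 : (2 : F) ≠ 0) (h : Pre B N k M) (hε : ε * ε = 1)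
    (hs : ∀ x y, B x y = ε * B y x)
    (hnd : ∀ x, (∀ y, B x y = 0) → x = 0) {P : Subgroup (V ≃ₗ[F] V)}
    (hPI : ∀ g ∈ P, ∀ x y, B (g x) (g y) = B x y) (hM : ∀ g ∈ P, ∀ x ∈ M, g x ∈ M)
    (hact : ∀ g ∈ P, ∃ s : F, s * s = 1 ∧ ∀ x, g (N x) = s • N (g x)) :
    ∃ M' : Submodule F V, Str B N k M' ∧ (∀ g ∈ P, ∀ x ∈ M', g x ∈ M') := by
  have key : ∀ n, n ≤ k - 1 → ∃ M' : Submodule F V, Pre B N k M' ∧ (∀ g ∈ P, ∀ x ∈ M', g x ∈ M') ∧
      ∀ x ∈ M', ∀ y ∈ M', ∀ i, k - 1 - n ≤ i → i ≠ k - 1 → B x ((N ^ i) y) = 0 := by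
    intro n
    induction n with
    | zero =>
      intro _
      refine ⟨M, h, hM, fun x _ y _ i hi hik => ?_⟩
      rw [pow_zero_of_le h.nil (by omega), map_zero]
    | succ n ih =>
      intro hn
      obtain ⟨M₁, h1, h3, h4⟩ := ih (by omega)
      obtain ⟨M₂, h5, h6, h7⟩ := h1.step h2 hε hs hnd hPI h3 hact (j := k - 1 - (n + 1)) (by have := h.hk; omega)
        (fun x hx y hy i hi hik => h4 x hx y hy i (by omega) hik)
      exact ⟨M₂, h5, h6, h7⟩
  obtain ⟨M', h1, h3, h4⟩ := key (k - 1) le_rfl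
  exact ⟨M', ⟨h1, fun x hx y hy i hi => h4 x hx y hy i (by omega) hi⟩, h3⟩

theorem geom_inv (hn : N ^ k = 0) (u : V) :
    u = (∑ i ∈ Finset.range k, (N ^ i) u) - N (∑ i ∈ Finset.range k, (N ^ i) u) := by
  have h := mul_neg_geom_sum (N : End F V) k
  have h1 := LinearMap.congr_fun h u
  have hn' : (N : End F V) ^ k = 0 := hn
  rw [hn', sub_zero, Module.End.mul_apply, LinearMap.sum_apply] at h1
  exact h1.symm

/-- **UNI-1** -/
theorem uni1 [FiniteDimensional F V] (h2 : (2 : F) ≠ 0) (hε : ε * ε = 1) (hs : ∀ x y, B x y = ε * B y x)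
    (hnd : ∀ x, (∀ y, B x y = 0) → x = 0) {c : V ≃ₗ[F] V} (hc : c ∈ Isom B) (hc1 : c ≠ 1)
    (hu : IsNilpotent (((c : V →ₗ[F] V) : End F V) - 1)) {P : Subgroup (V ≃ₗ[F] V)} [Finite P]
    (hP : (Nat.card P : F) ≠ 0) (hPI : P ≤ Isom B) (hact : ∀ g ∈ P, g * c * g⁻¹ = c ∨ g * c * g⁻¹ = c⁻¹) :
    Red B (Subgroup.closure {c} ⊔ P) ∨ ∃ (N : V →ₗ[F] V) (k : ℕ) (M : Submodule F V), Cay B c N ∧ Str B N k M ∧
      (∀ g ∈ P, ∀ x ∈ M, g x ∈ M) ∧
      ∀ g ∈ P, (g * c * g⁻¹ = c ∧ ∀ x, g (N x) = N (g x)) ∨ (g * c * g⁻¹ = c⁻¹ ∧ ∀ x, g (N x) = - N (g x)) := by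
  obtain ⟨N, hN⟩ := exists_cay h2 (B := B) hc hu
  have hN0 := hN.ne hc1
  set k := nilpotencyClass (N : End F V) with hk
  have hnil : N ^ k = 0 := pow_nilpotencyClass hN.nil
  have hnt : Nontrivial V := by
    by_contra h
    rw [not_nontrivial_iff_subsingleton] at h
    exact hN0 (LinearMap.ext fun x => Subsingleton.elim _ _)
  have hk0 : 0 < k := pos_nilpotencyClass_iff.2 hN.nil
  have htop : N ^ (k - 1) ≠ 0 := pow_pred_nilpotencyClass hN.nil
  have hk2 : 2 ≤ k := by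
    by_contra hcon
    have h1 : k = 1 := by omega
    rw [h1, pow_one] at hnil
    exact hN0 hnil
  have hPact : ∀ g ∈ P, (g * c * g⁻¹ = c ∧ ∀ x, g (N x) = N (g x)) ∨
      (g * c * g⁻¹ = c⁻¹ ∧ ∀ x, g (N x) = - N (g x)) := by
    intro g hg
    rcases hact g hg with h | h
    · exact Or.inl ⟨h, hN.plus g h⟩
    · exact Or.inr ⟨h, hN.minus g h⟩
  have hact' : ∀ g ∈ P, ∃ s : F, s * s = 1 ∧ ∀ x, g (N x) = s • N (g x) := by
    intro g hg
    rcases hPact g hg with ⟨-, h⟩ | ⟨-, h⟩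
    · exact ⟨1, one_mul 1, fun x => by rw [one_smul]; exact h x⟩
    · exact ⟨-1, by ring, fun x => by rw [neg_smul, one_smul]; exact h x⟩
  have hW : ∀ g ∈ P, ∀ x ∈ LinearMap.ker (N ^ (k - 1)), g x ∈ LinearMap.ker (N ^ (k - 1)) := by
    intro g hg x hx
    rw [LinearMap.mem_ker] at hx ⊢
    obtain ⟨s, hs1, hs2⟩ := hact' g hg
    have h1 : g ((N ^ (k - 1)) x) = s ^ (k - 1) • (N ^ (k - 1)) (g x) :=
      g_pow (g := (g : V →ₗ[F] V)) hs2 (k - 1) x
    rw [hx, map_zero] at h1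
    have h3 : s ≠ 0 := by rintro rfl; simp at hs1
    exact (smul_eq_zero.1 h1.symm).resolve_left (pow_ne_zero _ h3)
  obtain ⟨M, hM, hMP⟩ := exists_compl hP hW
  have hMinj : ∀ x ∈ M, (N ^ (k - 1)) x = 0 → x = 0 := fun x hx h0 =>
    (Submodule.disjoint_def.1 hM.disjoint) x (LinearMap.mem_ker.2 h0) hx
  by_cases hU : blk N M = ⊤
  · right
    have hpre : Pre B N k M := by
      refine ⟨hk2, hnil, hN.skew, ?_, hMinj⟩
      rw [eq_top_iff]
      calc ⊤ = blk N M := hU.symm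
        _ ≤ M ⊔ (blk N M).map N := blk_le
        _ ≤ M ⊔ LinearMap.range N := sup_le_sup_left LinearMap.map_le_range _
    obtain ⟨M', h3, h4⟩ := hpre.exists_str h2 hε hs hnd (P := P) (fun g hg => hPI hg) hMP hact'
    exact ⟨N, k, M', hN, h3, h4, hPact⟩
  · left
    refine ⟨blk N M, ?_, hU, ?_, ?_⟩
    · intro h0
      apply htop
      rw [← LinearMap.ker_eq_top]
      have hM0 : M = ⊥ := eq_bot_iff.2 ((le_blk M).trans h0.le)
      have := hM.sup_eq_top
      rwa [hM0, sup_bot_eq] at this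
    · refine top_nd (k := k) (by omega) hN.skew hnil hnd ?_ (fun u hu => N_mem_blk hu) ?_
      · intro v
        have hv : v ∈ LinearMap.ker (N ^ (k - 1)) ⊔ M := by rw [hM.sup_eq_top]; trivial
        obtain ⟨w, hw, m, hm, rfl⟩ := Submodule.mem_sup.1 hv
        exact ⟨m, le_blk M hm, w, hw, add_comm _ _⟩
      · intro u hu h0
        obtain ⟨m, hm, _, ⟨u', hu', rfl⟩, rfl⟩ := Submodule.mem_sup.1 (blk_le hu)
        have h1 : (N ^ (k - 1)) (N u') = 0 := by
          have h3 := powN (N := N) (k - 1) 1 u'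
          rw [pow_one] at h3
          rw [h3]
          exact pow_zero_of_le hnil (by omega) u'
        rw [map_add, h1, add_zero] at h0
        exact ⟨u', hu', by rw [hMinj m hm h0, zero_add]⟩
    · intro g hg
      left
      have hle : Subgroup.closure {c} ⊔ P ≤ stab (blk N M) := by
        refine sup_le ?_ ?_
        · rw [Subgroup.closure_le, Set.singleton_subset_iff]
          refine mem_stab_of_le fun u hu => ?_
          have hsum : (∑ i ∈ Finset.range k, (N ^ i) u) ∈ blk N M := by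
            refine Submodule.sum_mem _ fun i hi => ?_
            clear hi
            induction i with
            | zero => simpa using hu
            | succ i ih =>
              rw [pow_succ', Module.End.mul_apply]
              exact N_mem_blk ih
          rw [geom_inv hnil u, hN.cc]
          exact Submodule.add_mem _ hsum (N_mem_blk hsum)
        · intro g hg
          refine mem_stab_of_le fun u hu => ?_
          refine blk_invt (g := (g : V →ₗ[F] V)) (hMP g hg) ?_ hu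
          rcases hPact g hg with ⟨-, h⟩ | ⟨-, h⟩
          · exact Or.inl h
          · exact Or.inr h
      exact hle hg

end

end Cfsg.Agent.H396.Uni
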