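import Cfsg.Agent.H396.Uni.Cay

/-!
# S4970, FR-UNI, part 2: an invariant complement and the top block
-/

set_option autoImplicit false

namespace Cfsg.Agent.H396.Uni

open Module Cfsg.Agent.H721.FR Cfsg.Agent.H721.SR

section

variable {F V : Type*} [Field F] [AddCommGroup V] [Module F V]

/-- **Maschke**: an invariant complement -/
theorem exists_compl {P : Subgroup (V ≃ₗ[F] V)} [Finite P] (hP : (Nat.card P : F) ≠ 0) {W : Submodule F V}
    (hW : ∀ g ∈ P, ∀ x ∈ W, g x ∈ W) :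
    ∃ M : Submodule F V, IsCompl W M ∧ ∀ g ∈ P, ∀ x ∈ M, g x ∈ M := by
  classical
  have : Fintype P := Fintype.ofFinite P
  obtain ⟨W', hW'⟩ := Submodule.exists_isCompl W
  set π : V →ₗ[F] V := W.subtype ∘ₗ Submodule.projectionOnto W W' hW' with hπ
  have hπW : ∀ x, π x ∈ W := fun x => (Submodule.projectionOnto W W' hW' x).2
  have hπx : ∀ x ∈ W, π x = x := by
    intro x hx
    rw [hπ]
    show ((Submodule.projectionOnto W W' hW' x : W) : V) = x
    exact congrArg Subtype.val (Submodule.projectionOnto_apply_left hW' ⟨x, hx⟩)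
  -- the average
  set ρ : V →ₗ[F] V := ((Nat.card P : F)⁻¹) • ∑ g : P, ((g : V ≃ₗ[F] V) : V →ₗ[F] V) ∘ₗ π ∘ₗ
    (((g⁻¹ : P) : V ≃ₗ[F] V) : V →ₗ[F] V) with hρ
  have hρa : ∀ x, ρ x = (Nat.card P : F)⁻¹ • ∑ g : P, (g : V ≃ₗ[F] V) (π (((g⁻¹ : P) : V ≃ₗ[F] V) x)) := by
    intro x
    rw [hρ, LinearMap.smul_apply, LinearMap.sum_apply]
    rfl
  have hρW : ∀ x, ρ x ∈ W := by
    intro x
    rw [hρa]
    exact W.smul_mem _ (Submodule.sum_mem _ fun g _ => hW _ g.2 _ (hπW _))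
  have hρx : ∀ x ∈ W, ρ x = x := by
    intro x hx
    rw [hρa]
    have h1 : ∀ g : P, (g : V ≃ₗ[F] V) (π (((g⁻¹ : P) : V ≃ₗ[F] V) x)) = x := by
      intro g
      rw [hπx _ (hW _ (g⁻¹).2 _ hx)]
      show ((g : V ≃ₗ[F] V) * ((g⁻¹ : P) : V ≃ₗ[F] V)) x = x
      rw [← Subgroup.coe_mul, mul_inv_cancel]
      rfl
    rw [Finset.sum_congr rfl fun g _ => h1 g, Finset.sum_const, Finset.card_univ, ← Nat.card_eq_fintype_card,
      ← Nat.cast_smul_eq_nsmul F, smul_smul, inv_mul_cancel₀ hP, one_smul]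
  have hρg : ∀ h : P, ∀ x, ρ ((h : V ≃ₗ[F] V) x) = (h : V ≃ₗ[F] V) (ρ x) := by
    intro h x
    rw [hρa, hρa, map_smul, map_sum]
    congr 1
    refine Fintype.sum_equiv (Equiv.mulLeft h⁻¹) _ _ fun g => ?_
    simp only [Equiv.coe_mulLeft]
    have e1 : (h : V ≃ₗ[F] V) (((h⁻¹ * g : P) : V ≃ₗ[F] V) (π (((((h⁻¹ * g)⁻¹ : P)) : V ≃ₗ[F] V) x))) =
        (((h : V ≃ₗ[F] V) * ((h⁻¹ * g : P) : V ≃ₗ[F] V))) (π (((((h⁻¹ * g)⁻¹ : P)) : V ≃ₗ[F] V) x)) := rfl
    rw [e1, ← Subgroup.coe_mul, mul_inv_cancel_left, mul_inv_rev, inv_inv]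
    rfl
  refine ⟨LinearMap.ker ρ, ?_, ?_⟩
  · constructor
    · rw [Submodule.disjoint_def]
      intro x hx hk
      rw [LinearMap.mem_ker, hρx x hx] at hk
      exact hk
    · rw [codisjoint_iff_le_sup]
      intro x _
      rw [Submodule.mem_sup]
      refine ⟨ρ x, hρW x, x - ρ x, ?_, by abel⟩
      rw [LinearMap.mem_ker, map_sub, hρx _ (hρW x), sub_self]
  · intro g hg x hx
    rw [LinearMap.mem_ker] at hx ⊢
    have := hρg ⟨g, hg⟩ x
    rw [this, hx, map_zero]

variable {B : V →ₗ[F] V →ₗ[F] F} {N : V →ₗ[F] V} {k : ℕ}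

theorem skew_pow (hs : ∀ x y, B (N x) y = - B x (N y)) (i : ℕ) (x y : V) :
    B ((N ^ i) x) y = (-1) ^ i * B x ((N ^ i) y) := by
  induction i generalizing x y with
  | zero => simp
  | succ i ih =>
    have e1 : (N ^ (i + 1)) x = N ((N ^ i) x) := by rw [pow_succ', Module.End.mul_apply]
    have e2 : (N ^ (i + 1)) y = (N ^ i) (N y) := by rw [pow_succ, Module.End.mul_apply]
    rw [e1, e2, hs, ih, pow_succ]
    ring

/-- the top block is nondegenerate -/
theorem top_nd (hk : 1 ≤ k) (hs : ∀ x y, B (N x) y = - B x (N y)) (hn : N ^ k = 0)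
    (hnd : ∀ x, (∀ y, B x y = 0) → x = 0)
    {U : Submodule F V} (hU1 : ∀ v, ∃ u ∈ U, ∃ w, (N ^ (k - 1)) w = 0 ∧ v = u + w) (hU2 : ∀ u ∈ U, N u ∈ U)
    (hU3 : ∀ u ∈ U, (N ^ (k - 1)) u = 0 → ∃ v ∈ U, u = N v) : NdOn B U := by
  have key : ∀ j, j ≤ k - 1 → ∀ x ∈ U, N x = 0 → ∃ u ∈ U, x = (N ^ j) u := by
    intro j
    induction j with
    | zero => intro _ x hx _; exact ⟨x, hx, by simp⟩
    | succ j ih =>
      intro hj x hx h0
      obtain ⟨u, hu, rfl⟩ := ih (by omega) x hx h0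
      have h1 : (N ^ (k - 1)) u = 0 := by
        have h2 : k - 1 = (k - 1 - (j + 1)) + (j + 1) := by omega
        rw [h2, pow_add, Module.End.mul_apply, pow_succ', Module.End.mul_apply, h0, map_zero]
      obtain ⟨v, hv, rfl⟩ := hU3 u hu h1
      exact ⟨v, hv, by rw [pow_succ, Module.End.mul_apply]⟩
  -- a vector of the radical killed by `N` is zero
  have h0 : ∀ x ∈ U, N x = 0 → (∀ y ∈ U, B x y = 0) → x = 0 := by
    intro x hx hNx hr
    obtain ⟨u, hu, rfl⟩ := key (k - 1) le_rfl x hx hNx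
    apply hnd
    intro v
    obtain ⟨u', hu', w, hw, rfl⟩ := hU1 v
    rw [map_add, hr u' hu', skew_pow hs, hw, map_zero, mul_zero, add_zero]
  -- induction on the nilpotency of `x`
  have h1 : ∀ j, ∀ x ∈ U, (N ^ j) x = 0 → (∀ y ∈ U, B x y = 0) → x = 0 := by
    intro j
    induction j with
    | zero => intro x _ hx _; simpa using hx
    | succ j ih =>
      intro x hx hj hr
      apply h0 x hx _ hr
      apply ih (N x) (hU2 x hx)
      · rw [← Module.End.mul_apply, ← pow_succ]; exact hj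
      · intro y hy
        rw [hs, hr _ (hU2 y hy), neg_zero]
  intro x hx hr
  exact h1 k x hx (by rw [hn]; rfl) hr

/-- the span of the `N^i M` -/
def blk (N : V →ₗ[F] V) (M : Submodule F V) : Submodule F V := ⨆ i : ℕ, M.map (N ^ i)

theorem le_blk (M : Submodule F V) : M ≤ blk N M := by
  have h := le_iSup (fun i : ℕ => M.map (N ^ i)) 0
  have h1 : M.map (N ^ 0) = M := by rw [pow_zero]; exact Submodule.map_id M
  rw [h1] at h
  exact h

theorem N_mem_blk {M : Submodule F V} {u : V} (hu : u ∈ blk N M) : N u ∈ blk N M := by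
  have h : (blk N M).map N ≤ blk N M := by
    rw [blk, Submodule.map_iSup]
    refine iSup_le fun i => ?_
    have h1 : (M.map (N ^ i)).map N = M.map (N ^ (i + 1)) := by
      rw [← Submodule.map_comp, pow_succ']; rfl
    rw [h1]
    exact le_iSup (fun i : ℕ => M.map (N ^ i)) (i + 1)
  exact h ⟨u, hu, rfl⟩

theorem blk_le {M : Submodule F V} : blk N M ≤ M ⊔ (blk N M).map N := by
  rw [blk]
  refine iSup_le fun i => ?_
  cases i with
  | zero =>
    have h1 : M.map (N ^ 0) = M := by rw [pow_zero]; exact Submodule.map_id M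
    rw [h1]; exact le_sup_left
  | succ i =>
    refine le_sup_of_le_right ?_
    have h1 : M.map (N ^ (i + 1)) = (M.map (N ^ i)).map N := by
      rw [← Submodule.map_comp, pow_succ']; rfl
    rw [h1]
    exact Submodule.map_mono (le_iSup (fun i : ℕ => M.map (N ^ i)) i)

theorem blk_invt {M : Submodule F V} {g : V →ₗ[F] V} (hg : ∀ x ∈ M, g x ∈ M)
    (hN : (∀ x, g (N x) = N (g x)) ∨ ∀ x, g (N x) = - N (g x)) {u : V} (hu : u ∈ blk N M) : g u ∈ blk N M := by
  have h : (blk N M).map g ≤ blk N M := by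
    rw [blk, Submodule.map_iSup]
    refine iSup_le fun i => ?_
    have h1 : ∀ (i : ℕ) (x : V), g ((N ^ i) x) = (N ^ i) (g x) ∨ g ((N ^ i) x) = - (N ^ i) (g x) := by
      intro i
      induction i with
      | zero => intro x; left; simp
      | succ i ih =>
        intro x
        rw [pow_succ', Module.End.mul_apply, Module.End.mul_apply]
        rcases ih x with h | h <;> rcases hN with h' | h' <;> rw [h', h]
        · left; rfl
        · right; rfl
        · right; rw [map_neg]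
        · left; rw [map_neg, neg_neg]
    rintro _ ⟨_, ⟨x, hx, rfl⟩, rfl⟩
    have h2 : (N ^ i) (g x) ∈ ⨆ i : ℕ, M.map (N ^ i) :=
      (le_iSup (fun i : ℕ => M.map (N ^ i)) i) ⟨g x, hg x hx, rfl⟩
    rcases h1 i x with h | h
    · rw [h]; exact h2
    · rw [h]; exact Submodule.neg_mem _ h2
  exact h ⟨u, hu, rfl⟩

end

end Cfsg.Agent.H396.Uni
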